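import Cfsg.Agent.Chars.Induced.Covering
import Cfsg.Agent.Chars.Induced.Relative
import Cfsg.Agent.Chars.Induced.Gallagher
import Cfsg.Agent.Glauberman.Corr

/-!
# Fully ramified characters and intermediate subgroups

If a character vanishes off a normal subgroup `Z`, is a multiple of an invariant irreducible
character `θ` there, and the multiplicity has the full square root of the index as a divisor, then
`θ` is fully ramified; the irreducible characters over `θ` of an intermediate normal subgroup then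
form a single orbit.
-/

noncomputable section

namespace CfsgLib.Chars.Apps

open Cfsg CfsgLib.Chars CfsgLib.Chars.Induced

universe u

variable {G : Type u} [Group G] [Fintype G] {Z : Subgroup G} [Fintype Z]

/-- `ψ` lies over `θ`. -/
def Over {T : Subgroup G} (hZT : Z ≤ T) (θ : IrrCharacter Z) (ψ : IrrCharacter T) : Prop :=
  mult (fun z : Z => (ψ : T → ℂ) (Subgroup.inclusion hZT z)) θ ≠ 0

variable [Z.Normal]

/-- Uniqueness of the character over `θ`, from a possibly reducible character vanishing off `Z`. -/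
theorem unique_over_of_character (θ : IrrCharacter Z)
    (hinv : ∀ x : G, conjFun Z x (θ : Z → ℂ) = θ) {X : G → ℂ} (hX : IsCharacter G X)
    (hoff : ∀ g : G, g ∉ Z → X g = 0) {e : ℕ} (hres : ∀ z : Z, X z = (e : ℂ) * (θ : Z → ℂ) z)
    {g w : ℕ} (hidx : Z.index = g * g) (he : e = g * w) (hcop : Nat.Coprime g w) :
    ∀ η η' : IrrCharacter G, mult (fun z : Z => (η : G → ℂ) z) θ ≠ 0 →
      mult (fun z : Z => (η' : G → ℂ) z) θ ≠ 0 → η = η' := by
  classical
  have hg0 : 0 < g := by
    rcases Nat.eq_zero_or_pos g with rfl | h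
    · exact absurd (hidx.trans (mul_zero 0)) Subgroup.index_ne_zero_of_finite
    · exact h
  -- every multiplicity over `θ` is divisible by `g`
  have hdvd : ∀ η : IrrCharacter G, g ∣ mult (fun z : Z => (η : G → ℂ) z) θ := by
    intro η
    set f := mult (fun z : Z => (η : G → ℂ) z) θ with hf
    have h1 : classInner X (η : G → ℂ) * (Z.index : ℂ) = (e : ℂ) * (f : ℂ) := by
      have h2 : ∑ x : G, X x * starRingEnd ℂ ((η : G → ℂ) x) =
          (e : ℂ) * ∑ z : Z, (θ : Z → ℂ) z * starRingEnd ℂ ((η : G → ℂ) z) := by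
        rw [Finset.mul_sum, ← Finset.sum_subset (Finset.subset_univ (Finset.univ.filter (· ∈ Z)))
          fun x _ hx => by rw [hoff x fun h => hx (Finset.mem_filter.2 ⟨Finset.mem_univ _, h⟩),
            zero_mul]]
        rw [Finset.sum_subtype (p := (· ∈ Z)) _ fun x => by simp]
        exact Finset.sum_congr rfl fun z _ => by rw [hres z]; ring
      have h3 : classInner (θ : Z → ℂ) (fun z : Z => (η : G → ℂ) z) = (f : ℂ) := by
        rw [classInner_irr_left_eq_mult (isCharacter_restrict (isCharacter_coe η) Z)]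
      rw [← h3, classInner, classInner, h2]
      have hc : (Nat.card G : ℂ) = (Nat.card Z : ℂ) * (Z.index : ℂ) := by
        exact_mod_cast Z.card_mul_index.symm
      have hi : (Z.index : ℂ) ≠ 0 := Nat.cast_ne_zero.2 Subgroup.index_ne_zero_of_finite
      rw [hc]
      field_simp
    rw [classInner_eq_mult hX η, hidx] at h1
    have h4 : mult X η * (g * g) = g * w * f := by
      rw [← he]
      exact_mod_cast h1
    have h5 : g ∣ w * f := ⟨mult X η, Nat.eq_of_mul_eq_mul_left hg0 (by rw [← mul_assoc, ← h4]; ring)⟩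
    exact hcop.dvd_of_dvd_mul_left h5
  intro η η' hη hη'
  by_contra hne
  have hsum := sum_mult_sq_of_invariant θ hinv
  have hsub : ({η, η'} : Finset (IrrCharacter G)) ⊆ Finset.univ := Finset.subset_univ _
  have hle : ∑ ξ ∈ ({η, η'} : Finset (IrrCharacter G)), mult (fun z : Z => (ξ : G → ℂ) z) θ ^ 2 ≤
      Z.index := hsum ▸ Finset.sum_le_sum_of_subset_of_nonneg hsub fun _ _ _ => Nat.zero_le _
  rw [Finset.sum_pair hne, hidx] at hle
  have h1 := Nat.le_of_dvd (Nat.pos_of_ne_zero hη) (hdvd η)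
  have h2 := Nat.le_of_dvd (Nat.pos_of_ne_zero hη') (hdvd η')
  nlinarith

variable {T : Subgroup G} [Fintype T] [T.Normal] (hZT : Z ≤ T)

/-- Conjugation preserves lying over an invariant character, with multiplicity. -/
theorem mult_conjIrr_over (θ : IrrCharacter Z) (hinv : ∀ x : G, conjFun Z x (θ : Z → ℂ) = θ)
    (x : G) (ψ : IrrCharacter T) :
    mult (fun z : Z => (conjIrr x ψ : T → ℂ) (Subgroup.inclusion hZT z)) θ =
      mult (fun z : Z => (ψ : T → ℂ) (Subgroup.inclusion hZT z)) θ := by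
  have h : (fun z : Z => (conjIrr x ψ : T → ℂ) (Subgroup.inclusion hZT z)) =
      conjFun Z x (fun z : Z => (ψ : T → ℂ) (Subgroup.inclusion hZT z)) := by
    funext z
    rw [conjIrr_coe, conjFun_apply, conjFun_apply]
    exact congrArg (ψ : T → ℂ) (Subtype.ext rfl)
  simp only [mult, h]
  conv_lhs => rw [← hinv x, classInner_conjFun]

/-- With a unique character above, the characters over `θ` of a normal subgroup are conjugate. -/
theorem mem_conjOrbit_of_unique (θ : IrrCharacter Z)
    (huniq : ∀ η η' : IrrCharacter G, mult (fun z : Z => (η : G → ℂ) z) θ ≠ 0 →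
      mult (fun z : Z => (η' : G → ℂ) z) θ ≠ 0 → η = η')
    (ψ ψ' : IrrCharacter T) (hψ : Over hZT θ ψ) (hψ' : Over hZT θ ψ') :
    ψ' ∈ conjOrbit ψ := by
  classical
  have habove : ∀ ξ : IrrCharacter T, Over hZT θ ξ → ∃ η : IrrCharacter G,
      mult (fun t : T => (η : G → ℂ) t) ξ ≠ 0 ∧ mult (fun z : Z => (η : G → ℂ) z) θ ≠ 0 := by
    intro ξ hξ
    obtain ⟨η, hη⟩ := exists_mult_ne_zero (isCharacter_indFun T (isCharacter_coe ξ)) fun h0 => by
      have h1 := congrFun h0 1
      rw [indFun_one_apply, Pi.zero_apply] at h1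
      rcases mul_eq_zero.1 h1 with h2 | h2
      · exact Subgroup.index_ne_zero_of_finite (Nat.cast_eq_zero.1 h2)
      · exact map_one_ne_zero ξ h2
    rw [mult_indFun_irr] at hη
    refine ⟨η, hη, fun h0 => ?_⟩
    have hle := mult_mul_mult_le_restrict (Subgroup.inclusion hZT)
      (isCharacter_restrict (isCharacter_coe η) T) ξ θ
    exact Nat.mul_ne_zero hη hξ (Nat.eq_zero_of_le_zero (hle.trans_eq h0))
  obtain ⟨η, h1, h1'⟩ := habove ψ hψ
  obtain ⟨η', h2, h2'⟩ := habove ψ' hψ'
  rw [huniq η' η h2' h1'] at h2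
  exact mem_conjOrbit_of_mult_ne_zero η ψ ψ' h1 h2

/-- The size of the orbit of characters over `θ` times the squared multiplicity. -/
theorem index_mul_sq (θ : IrrCharacter Z) (hinv : ∀ x : G, conjFun Z x (θ : Z → ℂ) = θ)
    (ψ : IrrCharacter T) (hψ : Over hZT θ ψ)
    (horbit : ∀ ψ' : IrrCharacter T, Over hZT θ ψ' → ψ' ∈ conjOrbit ψ) :
    (inertia T (ψ : T → ℂ)).index *
      mult (fun z : Z => (ψ : T → ℂ) (Subgroup.inclusion hZT z)) θ ^ 2 = Z.relIndex T := by
  classical
  set Z' : Subgroup T := Z.subgroupOf T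
  have hn : Z'.Normal := Subgroup.Normal.comap inferInstance _
  set eq : Z' ≃* Z := Subgroup.subgroupOfEquivOfLe hZT
  set θ' : IrrCharacter Z' := CfsgLib.Glauberman.irrPull eq θ
  have hinv' : ∀ t : T, conjFun Z' t (θ' : Z' → ℂ) = θ' := fun t =>
    mem_inertia.1 (mem_inertia_iff_forall.2 fun n n' hn =>
      mem_inertia_iff_forall.1 (mem_inertia.2 (hinv (t : G))) (eq n) (eq n')
        (congrArg Subtype.val hn))
  have hm : ∀ ξ : IrrCharacter T, mult (fun n : Z' => (ξ : T → ℂ) n) θ' =
      mult (fun z : Z => (ξ : T → ℂ) (Subgroup.inclusion hZT z)) θ := by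
    intro ξ
    simp only [mult]
    rw [← classInner_comp_equiv eq (fun z : Z => (ξ : T → ℂ) (Subgroup.inclusion hZT z))]
    exact congrArg _ (congrArg _ (congrArg₂ classInner
      (funext fun n => congrArg (ξ : T → ℂ) (Subtype.ext rfl)) rfl))
  have hsum := sum_mult_sq_of_invariant θ' hinv'
  simp only [hm] at hsum
  rw [show Z.relIndex T = Z'.index from rfl, ← hsum, ← card_conjOrbit ψ, Nat.card_coe_set_eq,
    Set.ncard_eq_toFinset_card' (conjOrbit ψ), ← smul_eq_mul, ← Finset.sum_const,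
    ← Finset.sum_subset (Finset.subset_univ (conjOrbit ψ).toFinset) fun ξ _ hξ => ?_]
  · refine Finset.sum_congr rfl fun ξ hξ => ?_
    obtain ⟨x, rfl⟩ := Set.mem_toFinset.1 hξ
    rw [mult_conjIrr_over hZT θ hinv]
  · by_contra h0
    refine hξ (Set.mem_toFinset.2 (horbit ξ fun h1 => h0 ?_))
    rw [h1, zero_pow two_ne_zero]

/-- For a cyclic quotient the orbit is regular. -/
theorem inertia_eq_of_isCyclic (θ : IrrCharacter Z) [IsCyclic (G ⧸ T)]
    (huniq : ∀ η η' : IrrCharacter G, mult (fun z : Z => (η : G → ℂ) z) θ ≠ 0 →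
      mult (fun z : Z => (η' : G → ℂ) z) θ ≠ 0 → η = η')
    (ψ : IrrCharacter T) (hψ : Over hZT θ ψ) :
    inertia T (ψ : T → ℂ) = T := by
  classical
  set I := inertia T (ψ : T → ℂ)
  have hTI : T ≤ I := le_inertia (isClassFunction_coe ψ)
  refine le_antisymm ?_ hTI
  set T' : Subgroup I := T.subgroupOf I
  have hn : T'.Normal := Subgroup.Normal.comap inferInstance _
  set eq : T' ≃* T := Subgroup.subgroupOfEquivOfLe hTI
  set ψ' : IrrCharacter T' := CfsgLib.Glauberman.irrPull eq ψ
  have hinv' : ∀ t : I, conjFun T' t (ψ' : T' → ℂ) = ψ' := fun t =>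
    mem_inertia.1 (mem_inertia_iff_forall.2 fun n n' hn =>
      mem_inertia_iff_forall.1 t.2 (eq n) (eq n') (congrArg Subtype.val hn))
  have hker : T' = (((QuotientGroup.mk' T).comp I.subtype)).ker := by
    rw [← MonoidHom.comap_ker, QuotientGroup.ker_mk']
    rfl
  have hcyc : IsCyclic (I ⧸ T') := by
    have : IsCyclic ((QuotientGroup.mk' T).comp I.subtype).range := Subgroup.isCyclic _
    exact isCyclic_of_surjective ((QuotientGroup.quotientMulEquivOfEq hker).trans
      (QuotientGroup.quotientKerEquivRange _)).symm.toMonoidHom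
      (MulEquiv.surjective _)
  obtain ⟨ξ, hξ⟩ := exists_extension_of_isCyclic ψ' hinv'
  let _ := IsCyclic.commGroup (α := I ⧸ T')
  have hlin : ∀ β : IrrCharacter (I ⧸ T'), (β : I ⧸ T' → ℂ) 1 = 1 :=
    map_one_eq_one_of_isMulCommutative
  let tw : IrrCharacter (I ⧸ T') → IrrCharacter I := fun β =>
    ⟨_, gallagher_isIrrCharacter ξ ψ' hξ β⟩
  have htwres : ∀ β, (fun t : T => (tw β : I → ℂ) (Subgroup.inclusion hTI t)) = (ψ : T → ℂ) := by
    intro β
    funext t
    show (ξ : I → ℂ) ((eq.symm t : T') : I) * (β : I ⧸ T' → ℂ) (((eq.symm t : T') : I) : I ⧸ T') = _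
    rw [(QuotientGroup.eq_one_iff _).2 (eq.symm t).2, hlin, mul_one, hξ,
      CfsgLib.Glauberman.irrPull_apply, MulEquiv.apply_symm_apply]
  have hover : ∀ β, mult (fun t : T => (tw β : I → ℂ) (Subgroup.inclusion hTI t)) ψ ≠ 0 := by
    intro β
    rw [htwres β, ← Nat.cast_ne_zero (R := ℂ), ← classInner_eq_mult (isCharacter_coe _),
      classInner_irr_self]
    exact one_ne_zero
  have habove : ∀ β, ∃ η : IrrCharacter G, indFun I (tw β : I → ℂ) = (η : G → ℂ) ∧
      mult (fun z : Z => (η : G → ℂ) z) θ ≠ 0 := by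
    intro β
    refine ⟨⟨_, isIrrCharacter_indFun_inertia rfl hTI (tw β) (hover β)⟩, rfl, fun h0 => ?_⟩
    set η : IrrCharacter G := ⟨_, isIrrCharacter_indFun_inertia rfl hTI (tw β) (hover β)⟩
    have h1 : mult (indFun I (tw β : I → ℂ)) η ≠ 0 := by
      rw [show indFun I (tw β : I → ℂ) = (η : G → ℂ) from rfl, mult_irr, if_pos rfl]
      exact one_ne_zero
    rw [mult_indFun_irr] at h1
    have hle := mult_mul_mult_le_restrict (Subgroup.inclusion hTI)
      (isCharacter_restrict (isCharacter_coe η) I) (tw β) ψ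
    have h2 : mult (fun t : T => (η : G → ℂ) t) ψ ≠ 0 :=
      fun h3 => Nat.mul_ne_zero h1 (hover β) (Nat.eq_zero_of_le_zero (hle.trans_eq h3))
    have hle' := mult_mul_mult_le_restrict (Subgroup.inclusion hZT)
      (isCharacter_restrict (isCharacter_coe η) T) ψ θ
    exact Nat.mul_ne_zero h2 hψ (Nat.eq_zero_of_le_zero (hle'.trans_eq h0))
  have hsub : ∀ β β' : IrrCharacter (I ⧸ T'), β = β' := by
    intro β β'
    obtain ⟨η, hη, hη'⟩ := habove β
    obtain ⟨η₁, hη₁, hη₁'⟩ := habove β'
    have h : tw β = tw β' := indFun_inertia_injective rfl hTI _ _ (hover β) (hover β')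
      (by rw [hη, hη₁, huniq η η₁ hη' hη₁'])
    exact gallagher_injective ξ ψ' hξ β β' fun x => congrArg (fun ζ : IrrCharacter I => (ζ : I → ℂ) x) h
  intro x hx
  have h1 : ((⟨x, hx⟩ : I) : I ⧸ T') = 1 := by
    refine eq_one_of_forall_eq fun β => ?_
    rw [hsub β (oneChar _)]
    simp [oneChar_apply]
  exact Subgroup.mem_subgroupOf.1 ((QuotientGroup.eq_one_iff _).1 h1)

end CfsgLib.Chars.Apps
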