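import Cfsg.Agent.Chars.Apps.FullyRamified
import Mathlib.GroupTheory.Sylow

/-!
# Sylow subgroups and fully ramified characters

If `θ` is fully ramified in `H` and `K` is normal over `Z`, then under either of two hypotheses (a
cyclic Sylow subgroup of `H ⧸ K`, or a character of `K` of small multiplicity inducing `χ`) the
Sylow subgroup of `H ⧸ K` has a complement.
-/

noncomputable section

namespace CfsgLib.Chars.Apps

open Cfsg CfsgLib.Chars CfsgLib.Chars.Induced

universe u

/-- The index in a normal subgroup divides the index. -/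
theorem relIndex_dvd_index_of_normal {G : Type u} [Group G] [Finite G] (P N : Subgroup G)
    [N.Normal] : P.relIndex N ∣ P.index := by
  have e1 : P.relIndex N * N.index = (N ⊓ P).index := by
    rw [← Subgroup.relIndex_mul_index (inf_le_left : N ⊓ P ≤ N), Subgroup.inf_relIndex_left]
  have e2 : N.relIndex P * P.index = (N ⊓ P).index := by
    rw [← Subgroup.relIndex_mul_index (inf_le_right : N ⊓ P ≤ P), Subgroup.inf_relIndex_right]
  obtain ⟨t, ht⟩ : N.relIndex P ∣ N.index := by
    rw [← Subgroup.relIndex_sup_right P N]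
    exact Subgroup.relIndex_dvd_index_of_le le_sup_right
  refine ⟨t, Nat.eq_of_mul_eq_mul_left (show 0 < N.relIndex P from
    Nat.pos_of_ne_zero Subgroup.index_ne_zero_of_finite) ?_⟩
  rw [e2, ← e1, ht]
  ring

/-- The stabiliser of a character over `θ`: a subgroup whose index is the order of the Sylow
subgroup acting regularly. -/
theorem exists_stabilizer {Γ : Type u} [Group Γ] [Fintype Γ] (Z T S L : Subgroup Γ) [Z.Normal]
    [T.Normal] [L.Normal] (hZT : Z ≤ T) (hTS : T ≤ S)
    (θ : IrrCharacter Z) (hinv : ∀ x : Γ, conjFun Z x (θ : Z → ℂ) = θ)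
    (X : Γ → ℂ) (hX : IsCharacter Γ X) (hoff : ∀ x : Γ, x ∉ Z → X x = 0)
    {e g w : ℕ} (he0 : e ≠ 0) (hres : ∀ z : Z, X z = (e : ℂ) * (θ : Z → ℂ) z)
    (hidx : Z.relIndex S = g * g) (he : e = g * w) (hcop : Nat.Coprime g w)
    (hL : (T.relIndex L).Coprime (T.relIndex S))
    (hd : (T.relIndex S).Coprime w)
    (hreg : IsCyclic (S ⧸ T.subgroupOf S) ∨ ∃ (f : ℕ) (Φ : T → ℂ), IsCharacter T Φ ∧ f ≠ 0 ∧
      (∀ z : Z, Φ (Subgroup.inclusion hZT z) = (f : ℂ) * (θ : Z → ℂ) z) ∧
      f * T.relIndex S ∣ e) :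
    ∃ I : Subgroup Γ, L ≤ I ∧ I.index = T.relIndex S := by
  classical
  have hZS : Z ≤ S := hZT.trans hTS
  -- inside `S`
  set Z' : Subgroup S := Z.subgroupOf S with hZ'
  set T' : Subgroup S := T.subgroupOf S with hT'
  have hZn : Z'.Normal := Subgroup.Normal.comap inferInstance _
  have hTn : T'.Normal := Subgroup.Normal.comap inferInstance _
  have hZT' : Z' ≤ T' := fun x hx => hZT hx
  set eZ : Z' ≃* Z := Subgroup.subgroupOfEquivOfLe hZS
  set eT : T' ≃* T := Subgroup.subgroupOfEquivOfLe hTS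
  set θ' : IrrCharacter Z' := CfsgLib.Glauberman.irrPull eZ θ
  have hinv' : ∀ t : S, conjFun Z' t (θ' : Z' → ℂ) = θ' := fun t =>
    mem_inertia.1 (mem_inertia_iff_forall.2 fun n n' hn =>
      mem_inertia_iff_forall.1 (mem_inertia.2 (hinv (t : Γ))) (eZ n) (eZ n')
        (congrArg Subtype.val hn))
  have huniq := unique_over_of_character θ' hinv' (isCharacter_restrict hX S)
    (fun s hs => hoff s hs) (e := e) (fun z => by
      show X (eZ z : Γ) = _
      exact hres (eZ z)) (show Z'.index = g * g from hidx) he hcop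
  have hm : ∀ ξ : IrrCharacter T,
      mult (fun z : Z' => (CfsgLib.Glauberman.irrPull eT ξ : T' → ℂ) (Subgroup.inclusion hZT' z)) θ' =
        mult (fun z : Z => (ξ : T → ℂ) (Subgroup.inclusion hZT z)) θ := by
    intro ξ
    simp only [mult]
    rw [← classInner_comp_equiv eZ (fun z : Z => (ξ : T → ℂ) (Subgroup.inclusion hZT z))]
    exact congrArg _ (congrArg _ (congrArg₂ classInner
      (funext fun n => congrArg (ξ : T → ℂ) (Subtype.ext rfl)) rfl))
  have hover : ∀ ξ : IrrCharacter T, Over hZT θ ξ →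
      Over hZT' θ' (CfsgLib.Glauberman.irrPull eT ξ) := fun ξ hξ => by rwa [Over, hm]
  have htrans : ∀ ψ ψ' : IrrCharacter T, Over hZT θ ψ → Over hZT θ ψ' → ψ' ∈ conjOrbit ψ := by
    intro ψ ψ' hψ hψ'
    obtain ⟨s, hs⟩ := mem_conjOrbit_of_unique hZT' θ' huniq _ _ (hover ψ hψ) (hover ψ' hψ')
    refine ⟨(s : Γ), Subtype.ext (funext fun t => ?_)⟩
    have h1 := congrArg (fun ξ : IrrCharacter T' => (ξ : T' → ℂ) (eT.symm t)) hs
    simp only [conjIrr_coe, conjFun_apply, CfsgLib.Glauberman.irrPull_apply,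
      MulEquiv.apply_symm_apply] at h1
    show conjFun T (s : Γ) (ψ : T → ℂ) t = _
    rw [conjFun_apply, ← h1]
    exact congrArg (ψ : T → ℂ) (Subtype.ext rfl)
  -- a character over `θ`
  obtain ⟨ψ, -, hψ⟩ := exists_constituent_over (Subgroup.inclusion hZT)
    (isCharacter_restrict hX T) θ (by
      rw [← Nat.cast_ne_zero (R := ℂ), ← classInner_eq_mult (isCharacter_comp
        (isCharacter_restrict hX T) (Subgroup.inclusion hZT)),
        show (fun z : Z => (fun t : T => X t) (Subgroup.inclusion hZT z)) = (e : ℂ) • (θ : Z → ℂ)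
          from funext hres, CfsgLib.Chars.classInner_smul_left, classInner_irr_self, mul_one]
      exact Nat.cast_ne_zero.2 he0)
  set m := mult (fun z : Z => (ψ : T → ℂ) (Subgroup.inclusion hZT z)) θ with hmdef
  set ψ' := CfsgLib.Glauberman.irrPull eT ψ
  set N := (inertia T (ψ : T → ℂ)).index
  have hN : N * m ^ 2 = Z.relIndex T :=
    index_mul_sq hZT θ hinv ψ hψ fun ξ hξ => htrans ψ ξ hψ hξ
  have hN' : (inertia T' (ψ' : T' → ℂ)).index * m ^ 2 = Z.relIndex T := by
    have h1 := index_mul_sq hZT' θ' hinv' ψ' (hover ψ hψ) fun ξ hξ =>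
      mem_conjOrbit_of_unique hZT' θ' huniq _ _ (hover ψ hψ) hξ
    rw [hm, ← hmdef] at h1
    exact h1.trans (Subgroup.relIndex_subgroupOf hTS)
  have hNN : N = (inertia T' (ψ' : T' → ℂ)).index := by
    refine Nat.eq_of_mul_eq_mul_right (Nat.pos_of_ne_zero fun h0 => hψ ?_) (hN.trans hN'.symm)
    simpa using h0
  have hTidx : T'.index = T.relIndex S := rfl
  have hNd : N = T.relIndex S := by
    rw [hNN, ← hTidx]
    rcases hreg with hcyc | ⟨f, Φ, hΦ, hf0, hΦres, hfd⟩
    · have := hcyc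
      rw [inertia_eq_of_isCyclic hZT' θ' huniq ψ' (hover ψ hψ)]
    · refine le_antisymm (Nat.le_of_dvd (Nat.pos_of_ne_zero Subgroup.index_ne_zero_of_finite)
        (Subgroup.index_dvd_of_le (le_inertia (isClassFunction_coe ψ')))) ?_
      rw [← hNN, hTidx]
      -- the common multiplicity divides `f`
      have hmf : m ∣ f := by
        obtain ⟨s, hmem, hs⟩ := exists_eq_sum_mult hΦ
        have h1 := mult_restrict_eq_sum (Subgroup.inclusion hZT) hΦ hs θ
        have h2 : mult (fun z : Z => Φ (Subgroup.inclusion hZT z)) θ = f := by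
          apply Nat.cast_injective (R := ℂ)
          rw [← classInner_eq_mult (isCharacter_comp hΦ (Subgroup.inclusion hZT)),
            show (fun z : Z => Φ (Subgroup.inclusion hZT z)) = (f : ℂ) • (θ : Z → ℂ) from funext hΦres,
            CfsgLib.Chars.classInner_smul_left, classInner_irr_self, mul_one]
        rw [← h2, h1]
        refine Finset.dvd_sum fun ξ _ => dvd_mul_of_dvd_right ?_ _
        by_cases h0 : mult (fun z : Z => (ξ : T → ℂ) (Subgroup.inclusion hZT z)) θ = 0
        · rw [h0]; exact dvd_zero _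
        · obtain ⟨x, rfl⟩ := htrans ψ ξ hψ h0
          exact dvd_of_eq (mult_conjIrr_over hZT θ hinv x ψ).symm
      set d := T.relIndex S with hdd
      have hTS' : Z.relIndex T * d = g * g := by
        rw [← hidx, hdd, Subgroup.relIndex_mul_relIndex Z T S hZT hTS]
      have hmg : m ∣ g * g := by
        rw [← hTS', ← hN, pow_two]
        exact ⟨N * m * d, by ring⟩
      have hmw : Nat.Coprime m w := (Nat.Coprime.mul_left hcop hcop).coprime_dvd_left hmg
      have hmd : m * d ∣ g := by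
        refine (Nat.Coprime.mul_left hmw hd).dvd_of_dvd_mul_right ?_
        exact (Nat.mul_dvd_mul_right hmf d).trans (he ▸ hfd)
      have hle := Nat.mul_le_mul (Nat.le_of_dvd (Nat.pos_of_ne_zero fun h => he0 (by rw [he, h, zero_mul])) hmd)
        (Nat.le_of_dvd (Nat.pos_of_ne_zero fun h => he0 (by rw [he, h, zero_mul])) hmd)
      rw [← hTS', ← hN] at hle
      have hpos : 0 < m * m * d := Nat.mul_pos (Nat.mul_pos (Nat.pos_of_ne_zero hψ)
        (Nat.pos_of_ne_zero hψ)) (Nat.pos_of_ne_zero Subgroup.index_ne_zero_of_finite)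
      refine Nat.le_of_mul_le_mul_left ?_ hpos
      calc m * m * d * d = m * d * (m * d) := by ring
        _ ≤ _ := hle
        _ = m * m * d * N := by ring
  refine ⟨inertia T (ψ : T → ℂ), ?_, hNd⟩
  have h1 : (inertia T (ψ : T → ℂ)).relIndex L ∣ T.relIndex L :=
    Subgroup.relIndex_dvd_of_le_left L (le_inertia (isClassFunction_coe ψ))
  have h2 : (inertia T (ψ : T → ℂ)).relIndex L ∣ T.relIndex S :=
    hNd ▸ relIndex_dvd_index_of_normal _ L
  exact Subgroup.relIndex_eq_one.1 (Nat.eq_one_of_dvd_coprimes hL h1 h2)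

/-- For fully ramified `θ` a Sylow subgroup of `H ⧸ K` has a complement, under either hypothesis. -/
theorem exists_subgroup_index_eq {H : Type u} [Group H] [Fintype H] (Z : Subgroup H) [Z.Normal]
    (θ : IrrCharacter Z) (χ : IrrCharacter H)
    {e : ℕ} (he2 : e ^ 2 = Z.index) (hres : ∀ z : Z, (χ : H → ℂ) z = (e : ℂ) * (θ : Z → ℂ) z)
    (K : Subgroup H) [K.Normal] (hZK : Z ≤ K) (p : ℕ) [Fact p.Prime]
    (hreg : (∀ P : Sylow p (H ⧸ K), IsCyclic P) ∨ ∃ (f : ℕ) (φ : K → ℂ), IsCharacter K φ ∧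
      f ≠ 0 ∧ (∀ z : Z, φ (Subgroup.inclusion hZK z) = (f : ℂ) * (θ : Z → ℂ) z) ∧
      f * K.index ∣ e) :
    ∃ A : Subgroup (H ⧸ K), A.index = p ^ K.index.factorization p := by
  classical
  have hp : p.Prime := Fact.out
  have he0 : e ≠ 0 := fun h => Subgroup.index_ne_zero_of_finite (H := Z) (by rw [← he2, h]; simp)
  have hresf : (fun n : Z => (χ : H → ℂ) n) = (e : ℂ) • (θ : Z → ℂ) := funext hres
  have hmult : mult (fun n : Z => (χ : H → ℂ) n) θ ≠ 0 := by
    rw [← Nat.cast_ne_zero (R := ℂ),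
      ← classInner_eq_mult (isCharacter_restrict (isCharacter_coe χ) Z), hresf,
      CfsgLib.Chars.classInner_smul_left, classInner_irr_self, mul_one]
    exact Nat.cast_ne_zero.2 he0
  obtain ⟨hoff, hinv⟩ := (fully_ramified_iff χ θ hmult).1.1 ⟨e, hresf, he2⟩
  set π := QuotientGroup.mk' Z
  have hπ : Function.Surjective π := QuotientGroup.mk'_surjective Z
  obtain ⟨P⟩ : Nonempty (Sylow p (H ⧸ Z)) := inferInstance
  set Kb : Subgroup (H ⧸ Z) := K.map π
  have hKbn : Kb.Normal := Subgroup.Normal.map inferInstance π hπ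
  have hKb : Kb.comap π = K := by
    rw [Subgroup.comap_map_eq, QuotientGroup.ker_mk', sup_eq_left]
    exact hZK
  set S : Subgroup H := (P : Subgroup (H ⧸ Z)).comap π
  set T : Subgroup H := S ⊓ K with hT
  set Tb : Subgroup (H ⧸ Z) := (P : Subgroup (H ⧸ Z)) ⊓ Kb
  have hTc : Tb.comap π = T := by rw [Subgroup.comap_inf, hKb]
  -- the Sylow subgroup of `K ⧸ Z`, and the Frattini argument
  set Q : Subgroup Kb := (P : Subgroup (H ⧸ Z)).subgroupOf Kb
  have hQp : IsPGroup p Q := P.2.comap_of_injective Kb.subtype Kb.subtype_injective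
  have hQi : ¬ p ∣ Q.index := fun h =>
    P.not_dvd_index (h.trans (relIndex_dvd_index_of_normal (P : Subgroup (H ⧸ Z)) Kb))
  have hQmap : ((hQp.toSylow hQi : Sylow p Kb) : Subgroup Kb).map Kb.subtype = Tb := by
    show Q.map Kb.subtype = _
    rw [Subgroup.subgroupOf_map_subtype]
  have hfrat : Subgroup.normalizer (Tb : Set (H ⧸ Z)) ⊔ Kb = ⊤ := by
    rw [← hQmap]
    exact Sylow.normalizer_sup_eq_top (hQp.toSylow hQi)
  set M : Subgroup H := (Subgroup.normalizer (Tb : Set (H ⧸ Z))).comap π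
  have hMK : M ⊔ K = ⊤ := by
    rw [← hKb, Subgroup.comap_sup_eq π _ _ hπ, hfrat, Subgroup.comap_top]
  have hSM : S ≤ M := by
    refine Subgroup.comap_mono fun x hx' => ?_
    have hx : x ∈ (P : Subgroup (H ⧸ Z)) := hx'
    rw [Subgroup.mem_normalizer_iff]
    intro y
    have hmem := @Subgroup.mul_mem _ _ (P : Subgroup (H ⧸ Z))
    refine ⟨fun hy => ⟨hmem (hmem hx hy.1) (Subgroup.inv_mem _ hx), hKbn.conj_mem y hy.2 x⟩,
      fun hy => ?_⟩
    have h1 := hKbn.conj_mem _ hy.2 x⁻¹
    have h2 := hmem (hmem (Subgroup.inv_mem _ hx) hy.1) hx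
    rw [show x⁻¹ * (x * y * x⁻¹) * x⁻¹⁻¹ = y by group] at h1
    rw [show x⁻¹ * (x * y * x⁻¹) * x = y by group] at h2
    exact ⟨h2, h1⟩
  have hZS : Z ≤ S := fun z hz => by
    show π z ∈ (P : Subgroup (H ⧸ Z))
    rw [show π z = 1 from (QuotientGroup.eq_one_iff z).2 hz]
    exact one_mem _
  have hZT : Z ≤ T := le_inf hZS hZK
  have hTS : T ≤ S := inf_le_left
  have hTK : T ≤ K := inf_le_right
  have hTn : ∀ x ∈ M, ∀ t ∈ T, x * t * x⁻¹ ∈ T := by
    intro x hx t ht
    rw [← hTc] at ht ⊢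
    show π (x * t * x⁻¹) ∈ Tb
    rw [map_mul, map_mul, map_inv]
    exact (Subgroup.mem_normalizer_iff.1 hx (π t)).1 ht
  -- numbers
  have hZS' : Z.relIndex S = p ^ (Z.index.factorization p) := by
    have h1 : Nat.card P = p ^ (Z.index.factorization p) := P.card_eq_multiplicity
    rw [← h1]
    have h2 : Z.relIndex S = (⊥ : Subgroup (H ⧸ Z)).relIndex (P : Subgroup (H ⧸ Z)) := by
      rw [← Subgroup.map_comap_eq_self_of_surjective hπ (P : Subgroup (H ⧸ Z)),
        ← Subgroup.relIndex_comap, MonoidHom.comap_bot, QuotientGroup.ker_mk']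
    rw [h2, Subgroup.relIndex_bot_left]
  set a := e.factorization p
  set g := p ^ a
  obtain ⟨w, hw⟩ : g ∣ e := Nat.ordProj_dvd e p
  have hpw : ¬ p ∣ w := by
    have hw' : w = e / p ^ a := by rw [hw, Nat.mul_div_cancel_left _ (pow_pos hp.pos a)]
    rw [hw']
    exact Nat.not_dvd_ordCompl hp he0
  have hcop : Nat.Coprime g w := (hp.coprime_iff_not_dvd.2 hpw).pow_left a
  have hgg : Z.relIndex S = g * g := by
    rw [hZS', ← he2, Nat.factorization_pow, Finsupp.smul_apply, smul_eq_mul, ← pow_add]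
    congr 1
    show 2 * a = a + a
    ring
  set d := T.relIndex S with hd
  obtain ⟨k, hk⟩ : ∃ k, d = p ^ k := by
    have h1 : d ∣ Z.relIndex S := Subgroup.relIndex_dvd_of_le_left S hZT
    rw [hZS'] at h1
    obtain ⟨k, -, hk⟩ := (Nat.dvd_prime_pow hp).1 h1
    exact ⟨k, hk⟩
  have hdK : d = K.relIndex S := by rw [hd, hT, Subgroup.inf_relIndex_left]
  set Pb : Subgroup (H ⧸ K) := S.map (QuotientGroup.mk' K)
  have hPb : Nat.card Pb = d := by
    have h : (⊥ : Subgroup (H ⧸ K)).relIndex Pb = K.relIndex S := by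
      rw [← Subgroup.relIndex_comap, MonoidHom.comap_bot, QuotientGroup.ker_mk']
    rw [hdK, ← h, Subgroup.relIndex_bot_left]
  have hPbidx : ¬ p ∣ Pb.index := fun h => by
    have h1 : Pb.index ∣ S.index :=
      Subgroup.index_map_dvd S (QuotientGroup.mk'_surjective K)
    have h2 : S.index = (P : Subgroup (H ⧸ Z)).index := Subgroup.index_comap_of_surjective _ hπ
    exact P.not_dvd_index (h.trans (h2 ▸ h1))
  have hkK : K.index.factorization p = k := by
    have h1 := Pb.card_mul_index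
    rw [hPb, ← Subgroup.index_eq_card] at h1
    rw [← h1, Nat.factorization_mul (hk ▸ (pow_pos hp.pos k).ne') Subgroup.index_ne_zero_of_finite,
      Finsupp.add_apply, hk, hp.factorization_pow, Finsupp.single_eq_same,
      Nat.factorization_eq_zero_of_not_dvd hPbidx, add_zero]
  -- inside `M`
  have hTM : T ≤ M := hTS.trans hSM
  have hZM : Z ≤ M := hZT.trans hTM
  set Z' : Subgroup M := Z.subgroupOf M with hZ'
  set T' : Subgroup M := T.subgroupOf M with hT'
  set S' : Subgroup M := S.subgroupOf M with hS'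
  set L' : Subgroup M := K.subgroupOf M with hL'
  have hZ'n : Z'.Normal := Subgroup.Normal.comap inferInstance _
  have hL'n : L'.Normal := Subgroup.Normal.comap inferInstance _
  have hT'n : T'.Normal := ⟨fun t ht x => hTn x x.2 t ht⟩
  have hZT' : Z' ≤ T' := fun x hx => hZT hx
  set eZ : Z' ≃* Z := Subgroup.subgroupOfEquivOfLe hZM
  set θ' : IrrCharacter Z' := CfsgLib.Glauberman.irrPull eZ θ
  have hinv' : ∀ t : M, conjFun Z' t (θ' : Z' → ℂ) = θ' := fun t =>
    mem_inertia.1 (mem_inertia_iff_forall.2 fun n n' hn =>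
      mem_inertia_iff_forall.1 (mem_inertia.2 (hinv (t : H))) (eZ n) (eZ n')
        (congrArg Subtype.val hn))
  have hdS : T'.relIndex S' = d := Subgroup.relIndex_subgroupOf hSM
  have hTL : ¬ p ∣ T'.relIndex L' := by
    have hL : L' = (M ⊓ K).subgroupOf M := by rw [Subgroup.inf_subgroupOf_left]
    rw [hL, hT', Subgroup.relIndex_subgroupOf inf_le_left]
    intro h
    have h1 : T.relIndex (M ⊓ K) ∣ T.relIndex K :=
      Dvd.intro _ (Subgroup.relIndex_mul_relIndex T (M ⊓ K) K (le_inf hTM hTK) inf_le_right)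
    have h2 : T.relIndex K = S.relIndex K := Subgroup.inf_relIndex_right S K
    have h3 : S.index = (P : Subgroup (H ⧸ Z)).index := Subgroup.index_comap_of_surjective _ hπ
    exact P.not_dvd_index (h3 ▸ (h.trans h1).trans (h2 ▸ relIndex_dvd_index_of_normal S K))
  have hreg' : IsCyclic (S' ⧸ T'.subgroupOf S') ∨ ∃ (f : ℕ) (Φ : T' → ℂ), IsCharacter T' Φ ∧
      f ≠ 0 ∧ (∀ z : Z', Φ (Subgroup.inclusion hZT' z) = (f : ℂ) * (θ' : Z' → ℂ) z) ∧
      f * T'.relIndex S' ∣ e := by
    rcases hreg with hc | ⟨f, φ, hφ, hf, hφres, hfd⟩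
    · left
      have hPbp : IsPGroup p Pb := IsPGroup.of_card (hPb.trans hk)
      have hcy : IsCyclic Pb := hc (hPbp.toSylow hPbidx)
      let F : S' →* Pb := ((QuotientGroup.mk' K).comp (M.subtype.comp S'.subtype)).codRestrict Pb
        fun s => ⟨(s : M), s.2, rfl⟩
      have hF : Function.Surjective F := by
        rintro ⟨_, s, hs, rfl⟩
        exact ⟨⟨⟨s, hSM hs⟩, hs⟩, Subtype.ext rfl⟩
      have hker : T'.subgroupOf S' = F.ker := by
        ext s
        rw [MonoidHom.mem_ker, Subgroup.mem_subgroupOf, hT', Subgroup.mem_subgroupOf, hT,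
          Subgroup.mem_inf, Subtype.ext_iff]
        show _ ↔ QuotientGroup.mk' K ((s : M) : H) = 1
        rw [QuotientGroup.mk'_apply, QuotientGroup.eq_one_iff]
        exact ⟨fun h => h.2, fun h => ⟨s.2, h⟩⟩
      exact isCyclic_of_surjective ((QuotientGroup.quotientMulEquivOfEq hker).trans
        (QuotientGroup.quotientKerEquivOfSurjective F hF)).symm.toMonoidHom (MulEquiv.surjective _)
    · right
      refine ⟨f, fun t => φ ⟨((t : M) : H), hTK t.2⟩, isCharacter_comp hφ
        ((M.subtype.comp T'.subtype).codRestrict K fun t => hTK t.2), hf, fun z => ?_, ?_⟩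
      · exact hφres (eZ z)
      · rw [hdS]
        refine (Nat.mul_dvd_mul_left f ?_).trans hfd
        rw [hk, ← hkK]
        exact Nat.ordProj_dvd _ _
  obtain ⟨I, hLI, hI⟩ := exists_stabilizer Z' T' S' L' hZT' (fun x hx => hTS hx) θ' hinv'
    (fun x : M => (χ : H → ℂ) x) (isCharacter_restrict (isCharacter_coe χ) M)
    (fun x hx => hoff x hx) (e := e) (g := g) (w := w) he0 (fun z => hres (eZ z))
    (by rw [hZ', hS', Subgroup.relIndex_subgroupOf hSM]; exact hgg) hw hcop
    (by rw [hdS, hk]; exact ((hp.coprime_iff_not_dvd.2 hTL).pow_left k).symm)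
    (by rw [hdS, hk]; exact (hp.coprime_iff_not_dvd.2 hpw).pow_left k) hreg'
  -- the image in `H ⧸ K`
  let F : M →* H ⧸ K := (QuotientGroup.mk' K).comp M.subtype
  have hF : Function.Surjective F := by
    intro q
    obtain ⟨x, rfl⟩ := QuotientGroup.mk'_surjective K q
    have hx : x ∈ ((M ⊔ K : Subgroup H) : Set H) := by rw [hMK]; trivial
    rw [Subgroup.mul_normal] at hx
    obtain ⟨m, hm, c, hc, rfl⟩ := hx
    exact ⟨⟨m, hm⟩, QuotientGroup.eq.2 (by simpa using hc)⟩
  refine ⟨I.map F, ?_⟩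
  have hker : F.ker ≤ I := fun x hx => hLI (Subgroup.mem_subgroupOf.2
    ((QuotientGroup.eq_one_iff _).1 hx))
  rw [Subgroup.index_map_eq I hF hker, hI, hdS, hk, hkK]

end CfsgLib.Chars.Apps
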